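import Cfsg.Agent.H419.EP.Targets
import Cfsg.Agent.ClassicalGeometry.HermOrthonormal

/-!
# S3499-III-SL-C8U: the similarity groups of unitary forms are not extremely primitive stabilisers (helper135)

`M = similarityGroup f`, `f` unitary, `n ≥ 3`. In an orthonormal basis of `f`:
* `z = 1 + b ∑ E(i,i+1)`, `b σ(b) = -1`, `C = zᵀ σ(z)` is tridiagonal of trace `1`: `A ∩ A^x` is abelian for
  `x = z⁻¹`, so that `A` has a `Γ`-invariant elementary abelian subgroup `K ≠ 1` with `A/K` abelian;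
* `w = diag(ω², ω⁻¹, ω⁻¹, 1, ...)` is a commutator in `A`, so `w ∈ K`, and it commutes with `1 + E(1,2) ∉ A`.
-/

set_option autoImplicit false

namespace Cfsg.Agent.H135.EP

open Subgroup Matrix Cfsg.Agent.H284 Cfsg.Agent.H419.EP
open scoped MatrixGroups commutatorElement

/-! ### conjugating a model -/

section ConjModel

variable {Q : Type*} [Group Q] {ι : Type} [Fintype ι] [DecidableEq ι] {F : Type*} [Field F] {S : Subgroup (GL ι F)}

/-- the model `s ↦ π(P s P⁻¹)` -/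
def conjModel (m : Model Q S) (P : GL ι F) (hP : ∀ s, P * s * P⁻¹ ∈ S ↔ s ∈ S) : Model Q S where
  π := m.π.comp
    { toFun := fun s => ⟨P * s * P⁻¹, (hP _).2 s.2⟩
      map_one' := Subtype.ext (by show P * ((1 : S) : GL ι F) * P⁻¹ = 1; rw [Subgroup.coe_one]; group)
      map_mul' := fun s t => Subtype.ext (by
        show P * ((s * t : S) : GL ι F) * P⁻¹ = (P * s * P⁻¹) * (P * t * P⁻¹)
        rw [Subgroup.coe_mul]; group) }
  surj := by
    intro q
    obtain ⟨s, rfl⟩ := m.surj q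
    have hs : P⁻¹ * (s : GL ι F) * P ∈ S := by
      rw [← hP]
      have : P * (P⁻¹ * (s : GL ι F) * P) * P⁻¹ = s := by group
      rw [this]
      exact s.2
    refine ⟨⟨P⁻¹ * s * P, hs⟩, ?_⟩
    show m.π ⟨P * (P⁻¹ * (s : GL ι F) * P) * P⁻¹, _⟩ = m.π s
    congr 1
    apply Subtype.ext
    show P * (P⁻¹ * (s : GL ι F) * P) * P⁻¹ = s
    group
  ker := by
    intro s
    show m.π ⟨P * (s : GL ι F) * P⁻¹, _⟩ = 1 ↔ _
    rw [m.ker]
    show P * (s : GL ι F) * P⁻¹ ∈ Cfsg.Geo.scalars ι F ↔ _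
    constructor
    · intro h
      have := Cfsg.Geo.scalars_normal.conj_mem _ h P⁻¹
      rwa [show P⁻¹ * (P * (s : GL ι F) * P⁻¹) * P⁻¹⁻¹ = s by group] at this
    · intro h
      exact Cfsg.Geo.scalars_normal.conj_mem _ h P

theorem mem_hat_conjModel (m : Model Q S) (P : GL ι F) (hP : ∀ s, P * s * P⁻¹ ∈ S ↔ s ∈ S) (A : Subgroup Q)
    {g : GL ι F} : g ∈ (conjModel m P hP).hat A ↔ P * g * P⁻¹ ∈ m.hat A := by
  rw [Model.mem_hat, Model.mem_hat]
  constructor
  · rintro ⟨hg, h1⟩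
    exact ⟨(hP g).2 hg, h1⟩
  · rintro ⟨hg, h1⟩
    exact ⟨(hP g).1 hg, h1⟩

theorem sl_conj {ι : Type} [Fintype ι] [DecidableEq ι] {F : Type*} [Field F] (P : GL ι F) (s : GL ι F) :
    P * s * P⁻¹ ∈ Cfsg.Geo.specialLinear ι F ↔ s ∈ Cfsg.Geo.specialLinear ι F := by
  unfold Cfsg.Geo.specialLinear
  rw [MonoidHom.mem_ker, MonoidHom.mem_ker, map_mul, map_mul, map_inv, mul_comm, inv_mul_cancel_left]

end ConjModel

/-! ### matrices of determinant one -/

section Det

variable {ι : Type} [Fintype ι] [DecidableEq ι] {F : Type*} [Field F]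

/-- a matrix of determinant `1` as an element of `GL` -/
noncomputable def toG (M : Matrix ι ι F) (h : M.det = 1) : GL ι F :=
  Matrix.GeneralLinearGroup.mkOfDetNeZero M (by rw [h]; exact one_ne_zero)

theorem toG_coe (M : Matrix ι ι F) (h : M.det = 1) : ((toG M h : GL ι F) : Matrix ι ι F) = M := rfl

theorem toG_mem (M : Matrix ι ι F) (h : M.det = 1) : toG M h ∈ Cfsg.Geo.specialLinear ι F := by
  unfold Cfsg.Geo.specialLinear
  rw [MonoidHom.mem_ker]
  apply Units.ext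
  rw [Matrix.GeneralLinearGroup.val_det_apply, toG_coe, h, Units.val_one]

theorem det_of_mem {g : GL ι F} (h : g ∈ Cfsg.Geo.specialLinear ι F) : (g : Matrix ι ι F).det = 1 := by
  unfold Cfsg.Geo.specialLinear at h
  rw [MonoidHom.mem_ker] at h
  have := congrArg Units.val h
  rwa [Matrix.GeneralLinearGroup.val_det_apply, Units.val_one] at this

end Det

/-! ### the standard hermitian form -/

section Std

variable {ι : Type} [Fintype ι] [DecidableEq ι] {F : Type*} [Field F] (σ : F ≃+* F)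

/-- the standard hermitian form -/
def hst (u v : ι → F) : F := u ⬝ᵥ fun i => σ (v i)

omit [DecidableEq ι] in
theorem map_mulVec' (M : Matrix ι ι F) (v : ι → F) :
    (fun i => σ ((M *ᵥ v) i)) = M.map σ *ᵥ fun i => σ (v i) := by
  funext i
  simp only [Matrix.mulVec, dotProduct, map_sum, map_mul, Matrix.map_apply]

omit [DecidableEq ι] in
theorem hst_mulVec (M : Matrix ι ι F) (u v : ι → F) :
    hst σ (M *ᵥ u) (M *ᵥ v) = u ⬝ᵥ ((Mᵀ * M.map σ) *ᵥ fun i => σ (v i)) := by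
  unfold hst
  rw [map_mulVec' σ, ← Matrix.mulVec_mulVec, Matrix.dotProduct_mulVec u, Matrix.vecMul_transpose]

theorem mem_sim {g : GL ι F} : g ∈ Cfsg.Geo.similarityGroup (hst σ : (ι → F) → (ι → F) → F) ↔
    ∃ c : Fˣ, (g : Matrix ι ι F)ᵀ * (g : Matrix ι ι F).map σ = (c : F) • (1 : Matrix ι ι F) := by
  constructor
  · rintro ⟨c, hc⟩
    refine ⟨c, ?_⟩
    ext i j
    have h1 := hc (Pi.single i 1) (Pi.single j 1)
    rw [hst_mulVec] at h1
    have h2 : (fun k => σ ((Pi.single j 1 : ι → F) k)) = Pi.single j 1 := by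
      funext k
      by_cases hk : k = j
      · subst hk; simp
      · simp [hk]
    unfold hst at h1
    rw [h2] at h1
    simp only [Matrix.mulVec_single_one, single_dotProduct, one_mul, Matrix.col_apply] at h1
    rw [h1, Matrix.smul_apply, smul_eq_mul]
    congr 1
    rw [Matrix.one_apply]
    by_cases hij : i = j
    · subst hij; simp
    · simp [hij]
  · rintro ⟨c, hc⟩
    refine ⟨c, fun u v => ?_⟩
    rw [hst_mulVec, hc, Matrix.smul_mulVec, Matrix.one_mulVec, dotProduct_smul, smul_eq_mul]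
    rfl

/-- an orthonormal basis -/
theorem exists_std {n : ℕ} [Finite F] {f : (Fin n → F) → (Fin n → F) → F} (hf : Cfsg.Geo.IsUnitaryForm σ f) :
    ∃ P : GL (Fin n) F, ∀ u v, f ((P : Matrix (Fin n) (Fin n) F) *ᵥ u) ((P : Matrix (Fin n) (Fin n) F) *ᵥ v) =
      hst σ u v := by
  have hadd : ∀ v x y, f v (x + y) = f v x + f v y := fun v x y => by
    rw [hf.herm, hf.add_left, map_add, ← hf.herm, ← hf.herm]
  have hsmul : ∀ (c : F) (v x : Fin n → F), f v (c • x) = σ c * f v x := fun c v x => by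
    rw [hf.herm, hf.smul_left, map_mul, ← hf.herm]
  let B : (Fin n → F) →ₛₗ[(σ : F →+* F)] (Fin n → F) →ₗ[F] F :=
    LinearMap.mk₂'ₛₗ (σ : F →+* F) (RingHom.id F) (fun x y => f y x) (fun x y v => hadd _ _ _)
      (fun c x y => hsmul _ _ _) (fun x y v => hf.add_left _ _ _) (fun c x y => hf.smul_left _ _ _)
  have hB : ∀ x y, B x y = f y x := fun _ _ => rfl
  have hσ : (σ : F →+* F) ≠ RingHom.id F := by
    intro e
    apply hf.ne_refl
    ext x
    exact DFunLike.congr_fun e x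
  obtain ⟨b, hb⟩ := Cfsg.Agent.ClassicalGeometry.HermOrthonormal.exists_orthonormal_family hσ hf.involutive B
    ⟨fun x y => (hf.herm _ _).symm⟩ (by
      intro x hx
      by_contra hne
      obtain ⟨⟨y, hy⟩, -⟩ := hf.nondegenerate x hne
      exact hy (hx y)) n (by rw [Module.finrank_fin_fun])
  have hli := Cfsg.Agent.ClassicalGeometry.HermOrthonormal.linearIndependent_of_orthonormal B hb
  let P0 : Matrix (Fin n) (Fin n) F := Matrix.of fun i j => b j i
  have hP0 : IsUnit P0 := by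
    rw [← Matrix.isUnit_transpose, ← Matrix.linearIndependent_rows_iff_isUnit]
    exact hli
  obtain ⟨P, hP⟩ := hP0
  refine ⟨P, ?_⟩
  have hcol : ∀ u, (P : Matrix (Fin n) (Fin n) F) *ᵥ u = ∑ i, u i • b i := by
    intro u
    rw [hP]
    funext k
    rw [Matrix.mulVec, dotProduct, Finset.sum_apply]
    exact Finset.sum_congr rfl fun i _ => by
      show b i k * u i = u i * b i k
      ring
  intro u v
  rw [hcol, hcol, ← hB, map_sum]
  unfold hst
  rw [dotProduct]
  refine Finset.sum_congr rfl fun i _ => ?_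
  rw [map_sum, LinearMap.sum_apply, Finset.sum_eq_single i]
  · simp [hb]
  · intro j _ hj
    simp [hb, hj]
  · intro hi
    exact absurd (Finset.mem_univ i) hi

end Std

/-! ### the centraliser of a Hessenberg matrix is commutative -/

section Hess

variable {n : ℕ} {F : Type*} [Field F]

theorem hess_cyclic {C : Matrix (Fin (n + 1)) (Fin (n + 1)) F} (h1 : ∀ i j : Fin (n + 1), (j : ℕ) + 1 < i → C i j = 0)
    (h2 : ∀ i j : Fin (n + 1), (i : ℕ) = j + 1 → C i j ≠ 0) (v : Fin (n + 1) → F) :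
    ∃ r ∈ Algebra.adjoin F {C}, r *ᵥ (Pi.single 0 1) = v := by
  let W : Submodule F (Fin (n + 1) → F) :=
    { carrier := {v | ∃ r ∈ Algebra.adjoin F {C}, r *ᵥ (Pi.single 0 1) = v}
      zero_mem' := ⟨0, zero_mem _, Matrix.zero_mulVec _⟩
      add_mem' := by
        rintro _ _ ⟨r, hr, rfl⟩ ⟨s, hs, rfl⟩
        exact ⟨r + s, add_mem hr hs, Matrix.add_mulVec _ _ _⟩
      smul_mem' := by
        rintro c _ ⟨r, hr, rfl⟩
        exact ⟨c • r, Subalgebra.smul_mem _ hr c, Matrix.smul_mulVec _ _ _⟩ }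
  have hC : ∀ v ∈ W, C *ᵥ v ∈ W := by
    rintro _ ⟨r, hr, rfl⟩
    exact ⟨C * r, mul_mem (Algebra.subset_adjoin rfl) hr, (Matrix.mulVec_mulVec _ _ _).symm⟩
  have key : ∀ k : ℕ, ∀ hk : k < n + 1, (Pi.single (⟨k, hk⟩ : Fin (n + 1)) 1 : Fin (n + 1) → F) ∈ W := by
    intro k
    induction k using Nat.strong_induction_on with
    | _ k ih =>
      intro hk
      rcases Nat.eq_zero_or_pos k with rfl | hpos
      · exact ⟨1, one_mem _, Matrix.one_mulVec _⟩
      · obtain ⟨l, rfl⟩ : ∃ l, k = l + 1 := ⟨k - 1, by omega⟩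
        have h3 : C *ᵥ (Pi.single (⟨l, by omega⟩ : Fin (n + 1)) 1) ∈ W := hC _ (ih l (by omega) (by omega))
        have h4 : C *ᵥ (Pi.single (⟨l, by omega⟩ : Fin (n + 1)) 1) =
            ∑ i : Fin (n + 1), C i ⟨l, by omega⟩ • (Pi.single i 1 : Fin (n + 1) → F) := by
          funext j
          rw [Matrix.mulVec_single_one, Finset.sum_apply, Finset.sum_eq_single j]
          · simp
          · intro b _ hb
            simp [Ne.symm hb]
          · intro hj
            exact absurd (Finset.mem_univ j) hj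
        have h5 : (∑ i ∈ Finset.univ.erase (⟨l + 1, hk⟩ : Fin (n + 1)),
            C i ⟨l, by omega⟩ • (Pi.single i 1 : Fin (n + 1) → F)) ∈ W := by
          apply Submodule.sum_mem
          intro i hi
          rw [Finset.mem_erase] at hi
          rcases Nat.lt_or_ge i (l + 1) with h6 | h6
          · exact W.smul_mem _ (ih i h6 i.2)
          · have h7 : (l : ℕ) + 1 < i := by
              rcases Nat.lt_or_ge (l + 1) i with h8 | h8
              · exact h8
              · exfalso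
                apply hi.1
                apply Fin.ext
                show (i : ℕ) = l + 1
                omega
            rw [h1 i ⟨l, by omega⟩ h7, zero_smul]
            exact W.zero_mem
        have h6 : C ⟨l + 1, hk⟩ ⟨l, by omega⟩ • (Pi.single (⟨l + 1, hk⟩ : Fin (n + 1)) 1 : Fin (n + 1) → F) ∈ W := by
          rw [h4, ← Finset.add_sum_erase _ _ (Finset.mem_univ (⟨l + 1, hk⟩ : Fin (n + 1)))] at h3
          exact (W.add_mem_iff_left h5).1 h3
        exact (W.smul_mem_iff (h2 ⟨l + 1, hk⟩ ⟨l, by omega⟩ rfl)).1 h6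
  have hv : v ∈ W := by
    have : v = ∑ i : Fin (n + 1), v i • (Pi.single i 1 : Fin (n + 1) → F) := by
      funext j
      rw [Finset.sum_apply, Finset.sum_eq_single j]
      · simp
      · intro b _ hb
        simp [Ne.symm hb]
      · intro hj
        exact absurd (Finset.mem_univ j) hj
    rw [this]
    exact Submodule.sum_mem _ fun i _ => W.smul_mem _ (key i i.2)
  exact hv

theorem adjoin_comm {R : Type*} [Ring R] [Algebra F R] {C Y r : R} (hY : Y * C = C * Y) (hr : r ∈ Algebra.adjoin F {C}) :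
    Y * r = r * Y := by
  have h1 : Algebra.adjoin F {C} ≤ Subalgebra.centralizer F {Y} := by
    rw [Algebra.adjoin_le_iff, Set.singleton_subset_iff]
    intro y hy
    rw [Set.mem_singleton_iff.1 hy]
    exact hY
  exact h1 hr Y rfl

theorem hess_comm {C : Matrix (Fin (n + 1)) (Fin (n + 1)) F} (h1 : ∀ i j : Fin (n + 1), (j : ℕ) + 1 < i → C i j = 0)
    (h2 : ∀ i j : Fin (n + 1), (i : ℕ) = j + 1 → C i j ≠ 0) {X Y : Matrix (Fin (n + 1)) (Fin (n + 1)) F}
    (hX : X * C = C * X) (hY : Y * C = C * Y) : X * Y = Y * X := by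
  obtain ⟨p, hp, hp'⟩ := hess_cyclic h1 h2 (X *ᵥ Pi.single 0 1)
  have e : X = p := by
    apply Matrix.toLin'.injective
    apply LinearMap.ext
    intro v
    obtain ⟨r, hr, rfl⟩ := hess_cyclic h1 h2 v
    rw [Matrix.toLin'_apply, Matrix.toLin'_apply, Matrix.mulVec_mulVec, Matrix.mulVec_mulVec, adjoin_comm hX hr,
      adjoin_comm (adjoin_comm rfl hp : C * p = p * C).symm hr, ← Matrix.mulVec_mulVec, ← Matrix.mulVec_mulVec, hp']
  rw [e]
  exact (adjoin_comm hY hp).symm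

end Hess

/-! ### the kill criterion -/

section Kill

variable {Q : Type*} [Group Q] [Finite Q] {A : Subgroup Q} {Γ : Subgroup (MulAut Q)} (h : EPT A Γ)

include h

omit [Finite Q] in
/-- If some `A ∩ A^x` is abelian, then a commutator `≠ 1` of elements of `A` lies in `A^y` for `y ∈ A` only. -/
theorem comm_of_abM0 {x : Q} (hx : x ∉ A) (hab : ∀ a ∈ A ⊓ cj x A, ∀ b ∈ A ⊓ cj x A, a * b = b * a) {a b : Q}
    (ha : a ∈ A) (hb : b ∈ A) {y : Q} (hy : y ∉ A) (hc : a * b * a⁻¹ * b⁻¹ ∈ cj y A) : a * b = b * a := by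
  obtain ⟨K, hK, hKn, hne, hKab⟩ := h.abM0 x hx hab
  have hKc : ∀ g ∈ A, ∀ k ∈ K, g * k * g⁻¹ ∈ K := fun g hg k hk => hKn _ ((h.conj g).2 hg) k hk
  have hnil : Group.IsNilpotent K := by
    let _ : CommGroup K := { (inferInstance : Group K) with mul_comm := fun a b => Subtype.ext (hKab a a.2 b b.2) }
    infer_instance
  obtain ⟨-, -, -, h4, -⟩ := h.nilp K hK hKn hnil hne
  obtain ⟨k, hk, m1, hm1, rfl⟩ := h.fac_A hK hKn hne hx ha
  obtain ⟨l, hl, m2, hm2, rfl⟩ := h.fac_A hK hKn hne hx hb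
  have hcomm := hab m1 hm1 m2 hm2
  have e1 : k * m1 * (l * m2) * (k * m1)⁻¹ * (l * m2)⁻¹ =
      k * (m1 * l * m1⁻¹) * (m2 * k⁻¹ * m2⁻¹) * l⁻¹ := by
    have : m1 * m2 * m1⁻¹ = m2 := by rw [hcomm, mul_inv_cancel_right]
    calc k * m1 * (l * m2) * (k * m1)⁻¹ * (l * m2)⁻¹
        = k * (m1 * l * m1⁻¹) * (m1 * m2 * m1⁻¹) * k⁻¹ * m2⁻¹ * l⁻¹ := by group
      _ = k * (m1 * l * m1⁻¹) * m2 * k⁻¹ * m2⁻¹ * l⁻¹ := by rw [this]
      _ = _ := by group
  have hmem : k * m1 * (l * m2) * (k * m1)⁻¹ * (l * m2)⁻¹ ∈ K := by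
    rw [e1]
    exact K.mul_mem (K.mul_mem (K.mul_mem hk (hKc _ (mem_inf.1 hm1).1 _ hl))
      (hKc _ (mem_inf.1 hm2).1 _ (K.inv_mem hk))) (K.inv_mem hl)
  have h5 : k * m1 * (l * m2) * (k * m1)⁻¹ * (l * m2)⁻¹ ∈ K ⊓ cj y A := ⟨hmem, hc⟩
  rw [(h4 y hy).1, mem_bot, mul_inv_eq_one, mul_inv_eq_iff_eq_mul] at h5
  exact h5

/-- the criterion in a model: all elements of `Â ∩ Â^x` commute, `a, b ∈ Â`, `y ∉ Â` commutes with `w = [a, b]`. -/
theorem kill_abM0 {ι : Type} [Fintype ι] [DecidableEq ι] {F : Type*} [Field F] {S : Subgroup (GL ι F)} (m : Model Q S)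
    {x : GL ι F} (hxS : x ∈ S) (hx : x ∉ m.hat A)
    (hab : ∀ a ∈ m.hat A ⊓ cj x (m.hat A), ∀ b ∈ m.hat A ⊓ cj x (m.hat A), a * b = b * a) {a b w : GL ι F}
    (ha : a ∈ m.hat A) (hb : b ∈ m.hat A) (hw : a * b = w * (b * a)) {y : GL ι F} (hyS : y ∈ S) (hy : y ∉ m.hat A)
    (hyw : y * w = w * y) : w ∈ Cfsg.Geo.scalars ι F := by
  obtain ⟨haS, haA⟩ := m.mem_hat.1 ha
  obtain ⟨hbS, hbA⟩ := m.mem_hat.1 hb
  have hwS : w ∈ S := by
    have : w = a * b * (b * a)⁻¹ := by rw [hw, mul_inv_cancel_right]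
    rw [this]
    exact S.mul_mem (S.mul_mem haS hbS) (S.inv_mem (S.mul_mem hbS haS))
  have hx' : m.π ⟨x, hxS⟩ ∉ A := fun e => hx ((m.mem_hat_iff ⟨x, hxS⟩).2 e)
  have hy' : m.π ⟨y, hyS⟩ ∉ A := fun e => hy ((m.mem_hat_iff ⟨y, hyS⟩).2 e)
  have hab' : ∀ a ∈ A ⊓ cj (m.π ⟨x, hxS⟩) A, ∀ b ∈ A ⊓ cj (m.π ⟨x, hxS⟩) A, a * b = b * a := by
    rw [M0_eq_map m hxS]
    rintro _ ⟨a, ha, rfl⟩ _ ⟨b, hb, rfl⟩
    rw [← map_mul, ← map_mul]
    congr 1
    exact Subtype.ext (hab _ ha _ hb)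
  have e1 : m.π ⟨a, haS⟩ * m.π ⟨b, hbS⟩ = m.π ⟨w, hwS⟩ * (m.π ⟨b, hbS⟩ * m.π ⟨a, haS⟩) := by
    rw [← map_mul, ← map_mul, ← map_mul]
    congr 1
    exact Subtype.ext hw
  have e2 : m.π ⟨a, haS⟩ * m.π ⟨b, hbS⟩ * (m.π ⟨a, haS⟩)⁻¹ * (m.π ⟨b, hbS⟩)⁻¹ = m.π ⟨w, hwS⟩ := by
    rw [e1]; group
  have hwA : m.π ⟨w, hwS⟩ ∈ A := by
    rw [← e2]
    exact A.mul_mem (A.mul_mem (A.mul_mem haA hbA) (A.inv_mem haA)) (A.inv_mem hbA)
  have e3 := comm_of_abM0 h hx' hab' haA hbA hy' (by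
    rw [e2, mem_cj, ← map_inv, ← map_mul, ← map_mul]
    have : (⟨y, hyS⟩ : S)⁻¹ * ⟨w, hwS⟩ * ⟨y, hyS⟩ = ⟨w, hwS⟩ := by
      apply Subtype.ext
      show y⁻¹ * w * y = w
      rw [mul_assoc, ← hyw, inv_mul_cancel_left]
    rw [this]
    exact hwA)
  rw [e1, mul_eq_right] at e3
  · exact (m.ker ⟨w, hwS⟩).1 e3

end Kill

/-! ### the explicit matrices -/

section Explicit

variable {F : Type*} [Field F] {σ : F ≃+* F}

theorem comm_of_two {ι : Type} [Fintype ι] [DecidableEq ι] {X C : Matrix ι ι F} {c d : F} (hc : c ≠ 0)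
    (h1 : Xᵀ * X.map σ = c • (1 : Matrix ι ι F)) (h2 : Xᵀ * C * X.map σ = d • C) (htr : C.trace ≠ 0) :
    Xᵀ * C = C * Xᵀ := by
  have h3 : X.map σ * Xᵀ = c • (1 : Matrix ι ι F) := by
    have : (c⁻¹ • Xᵀ) * X.map σ = 1 := by
      rw [Matrix.smul_mul, h1, smul_smul, inv_mul_cancel₀ hc, one_smul]
    rw [mul_eq_one_comm, Matrix.mul_smul] at this
    rw [← this, smul_smul, mul_inv_cancel₀ hc, one_smul]
  have h4 : c • (Xᵀ * C) = d • (C * Xᵀ) := by
    rw [← Matrix.smul_mul d, ← h2, mul_assoc (Xᵀ * C), h3, Matrix.mul_smul, mul_one]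
  have h5 : c = d := by
    have h6 := congrArg Matrix.trace h2
    rw [Matrix.trace_mul_cycle, h3, Matrix.smul_mul, one_mul, Matrix.trace_smul, Matrix.trace_smul, smul_eq_mul,
      smul_eq_mul] at h6
    exact mul_right_cancel₀ htr h6
  rw [← h5] at h4
  have h7 := congrArg (c⁻¹ • ·) h4
  simpa only [smul_smul, inv_mul_cancel₀ hc, one_smul] using h7

/-- `1 + b ∑ E(i,i+1)` -/
def zM (n : ℕ) (b : F) : Matrix (Fin (n + 1)) (Fin (n + 1)) F :=
  Matrix.of fun i j => if i = j then 1 else if (j : ℕ) = i + 1 then b else 0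

theorem zM_apply (n : ℕ) (b : F) (i j : Fin (n + 1)) :
    zM n b i j = if i = j then 1 else if (j : ℕ) = i + 1 then b else 0 := rfl

theorem zM_det (n : ℕ) (b : F) : (zM n b).det = 1 := by
  rw [Matrix.det_of_isUpperTriangular]
  · exact Finset.prod_eq_one fun i _ => by rw [zM_apply, if_pos rfl]
  · intro i j hij
    have hij' : (j : ℕ) < i := hij
    rw [zM_apply, if_neg (by rintro rfl; exact lt_irrefl _ hij'), if_neg (by omega)]

theorem zM_C (n : ℕ) (b : F) (i j : Fin (n + 1)) :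
    ((zM n b)ᵀ * (zM n b).map σ) i j = ∑ k, zM n b k i * σ (zM n b k j) := rfl

theorem zM_zero (n : ℕ) (b : F) {i j : Fin (n + 1)} (h1 : i ≠ j) (h2 : (j : ℕ) ≠ i + 1) : zM n b i j = 0 := by
  rw [zM_apply, if_neg h1, if_neg h2]

theorem zM_hess0 (n : ℕ) (b : F) {i j : Fin (n + 1)} (hij : (j : ℕ) + 1 < i) :
    ((zM n b)ᵀ * (zM n b).map σ) i j = 0 := by
  rw [zM_C]
  apply Finset.sum_eq_zero
  intro k _
  by_cases h1 : k = i ∨ (i : ℕ) = k + 1
  · have h2 : (i : ℕ) ≤ k + 1 := by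
      rcases h1 with h1 | h1
      · rw [h1]; omega
      · omega
    rw [zM_zero n b (i := k) (j := j) (fun e => by rw [e] at h2; omega) (by omega), map_zero, mul_zero]
  · push Not at h1
    rw [zM_zero n b h1.1 h1.2, zero_mul]

theorem zM_hess1 (n : ℕ) (b : F) {i j : Fin (n + 1)} (hij : (i : ℕ) = j + 1) :
    ((zM n b)ᵀ * (zM n b).map σ) i j = b := by
  have hne : j ≠ i := by
    rintro rfl
    omega
  rw [zM_C, Finset.sum_eq_single j]
  · rw [zM_apply, zM_apply, if_neg hne, if_pos hij, if_pos rfl, map_one, mul_one]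
  · intro k _ hk
    by_cases h1 : (j : ℕ) = k + 1
    · rw [zM_zero n b (i := k) (j := i) (fun e => by rw [e] at h1; omega) (by omega), zero_mul]
    · rw [zM_zero n b hk h1, map_zero, mul_zero]
  · intro hj
    exact absurd (Finset.mem_univ j) hj

theorem zM_trace (n : ℕ) {b : F} (hb : b * σ b = -1) : ((zM n b)ᵀ * (zM n b).map σ).trace = 1 := by
  have h0 : ∀ k i : Fin (n + 1), zM n b k i * σ (zM n b k i) =
      (if k = i then 1 else 0) - (if (i : ℕ) = k + 1 then 1 else 0) := by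
    intro k i
    rw [zM_apply]
    by_cases h1 : k = i
    · subst h1
      rw [if_pos rfl, if_pos rfl, if_neg (by omega)]
      simp
    · rw [if_neg h1, if_neg h1]
      by_cases h2 : (i : ℕ) = k + 1
      · rw [if_pos h2, if_pos h2, hb]
        ring
      · rw [if_neg h2, if_neg h2]
        simp
  have h1 : ∀ i : Fin n, ((zM n b)ᵀ * (zM n b).map σ) i.succ i.succ = 0 := by
    intro i
    rw [zM_C, Finset.sum_congr rfl fun k _ => h0 k i.succ, Finset.sum_sub_distrib, Finset.sum_ite_eq',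
      if_pos (Finset.mem_univ _), Finset.sum_eq_single i.castSucc]
    · rw [if_pos (by rw [Fin.val_succ, Fin.val_castSucc]), sub_self]
    · intro k _ hk
      rw [if_neg]
      intro e
      apply hk
      apply Fin.ext
      rw [Fin.val_succ] at e
      rw [Fin.val_castSucc]
      omega
    · intro hj
      exact absurd (Finset.mem_univ _) hj
  have h2 : ((zM n b)ᵀ * (zM n b).map σ) 0 0 = 1 := by
    rw [zM_C, Finset.sum_congr rfl fun k _ => h0 k 0, Finset.sum_sub_distrib, Finset.sum_ite_eq',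
      if_pos (Finset.mem_univ _), Finset.sum_eq_zero, sub_zero]
    intro k _
    rw [if_neg]
    rw [Fin.val_zero]
    omega
  rw [Matrix.trace, Fin.sum_univ_succ]
  simp only [Matrix.diag_apply, h1, h2, Finset.sum_const_zero, add_zero]

/-- an element `ω ≠ 1` of norm one -/
theorem exists_omega (hσ : σ ≠ RingEquiv.refl F) (hσ2 : ∀ a, σ (σ a) = a) : ∃ ω : F, ω * σ ω = 1 ∧ ω ≠ 1 := by
  obtain ⟨u, hu⟩ : ∃ u, σ u ≠ u := by
    by_contra hc
    push Not at hc
    exact hσ (RingEquiv.ext hc)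
  have hu0 : u ≠ 0 := by
    rintro rfl
    exact hu (map_zero σ)
  have hu1 : σ u ≠ 0 := (map_ne_zero σ).2 hu0
  refine ⟨u / σ u, ?_, ?_⟩
  · rw [map_div₀, hσ2]
    field_simp
  · rw [Ne, div_eq_one_iff_eq hu1]
    exact fun e => hu e.symm

/-- an element `ω` of norm one with `ω³ ≠ 1` -/
theorem exists_omega3 [Fintype F] (hσ : σ ≠ RingEquiv.refl F) (hσ2 : ∀ a, σ (σ a) = a) (h4 : Fintype.card F ≠ 4) :
    ∃ ω : F, ω * σ ω = 1 ∧ ω ^ 3 ≠ 1 := by
  by_contra hcon
  push Not at hcon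
  have h1 : ∀ u, u ^ 3 = σ u ^ 3 := by
    intro u
    by_cases hu0 : u = 0
    · rw [hu0, map_zero]
    have hu1 : σ u ≠ 0 := (map_ne_zero σ).2 hu0
    have h2 := hcon (u / σ u) (by rw [map_div₀, hσ2]; field_simp)
    rwa [div_pow, div_eq_one_iff_eq (pow_ne_zero 3 hu1)] at h2
  obtain ⟨u, hu⟩ : ∃ u, σ u ≠ u := by
    by_contra hc
    push Not at hc
    exact hσ (RingEquiv.ext hc)
  have h2 : ∀ v, 3 * ((v - σ v) * (v + σ v + 1)) = 0 := by
    intro v
    have e1 := h1 v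
    have e2 := h1 (v + 1)
    rw [map_add, map_one] at e2
    linear_combination e2 - e1
  have h3 : (3 : F) ≠ 0 := by
    intro h3
    have e1 := h1 u
    have e2 : (u - σ u) ^ 3 = 0 := by
      have : (u - σ u) ^ 3 = (u ^ 3 - σ u ^ 3) - 3 * (u ^ 2 * σ u - u * σ u ^ 2) := by ring
      rw [this, h3, e1]
      ring
    have e3 : u - σ u = 0 := by
      by_contra hne
      exact pow_ne_zero 3 hne e2
    exact hu (sub_eq_zero.1 e3).symm
  have h5 : ∀ v, σ v ≠ v → v + σ v + 1 = 0 := by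
    intro v hv
    rcases mul_eq_zero.1 (h2 v) with e | e
    · exact absurd e h3
    · rcases mul_eq_zero.1 e with e | e
      · exact absurd (sub_eq_zero.1 e).symm hv
      · exact e
  have h6 := h5 u hu
  have h7 : (2 : F) = 0 := by
    have e := h5 (u + 1) (by rw [map_add, map_one]; exact fun e => hu (add_right_cancel e))
    rw [map_add, map_one] at e
    linear_combination e - h6
  have hu0 : u ≠ 0 := by
    rintro rfl
    exact hu (map_zero σ)
  have h8 : ∀ a, σ a = a → a ≠ 0 → a = 1 := by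
    intro a ha ha0
    have e := h5 (a * u) (by rw [map_mul, ha]; exact fun e => hu (mul_left_cancel₀ ha0 e))
    rw [map_mul, ha] at e
    linear_combination a * h6 - e
  have h9 : ∀ v, σ v ≠ v → v ^ 2 + v + 1 = 0 := by
    intro v hv
    have hv0 : v ≠ 0 := by
      rintro rfl
      exact hv (map_zero σ)
    have e1 : v * σ v = 1 := by
      apply h8
      · rw [map_mul, hσ2, mul_comm]
      · exact mul_ne_zero hv0 ((map_ne_zero σ).2 hv0)
    linear_combination v * h5 v hv - e1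
  have h10 : ∀ v : F, v = 0 ∨ v = 1 ∨ v = u ∨ v = u + 1 := by
    intro v
    by_cases hv0 : v = 0
    · exact Or.inl hv0
    by_cases hv : σ v = v
    · exact Or.inr (Or.inl (h8 v hv hv0))
    · right; right
      have e : (v - u) * (v - (u + 1)) = 0 := by
        linear_combination h9 v hv + h9 u hu - (u * v + v + 1) * h7
      rcases mul_eq_zero.1 e with e | e
      · exact Or.inl (sub_eq_zero.1 e)
      · exact Or.inr (sub_eq_zero.1 e)
  have hu1 : u ≠ 1 := by
    rintro rfl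
    exact hu (map_one σ)
  have hu2 : u + 1 ≠ 0 := by
    intro e
    have e1 : u = -1 := eq_neg_of_add_eq_zero_left e
    apply hu
    rw [e1, map_neg, map_one]
  apply h4
  classical
  have h11 : (Finset.univ : Finset F) = {0, 1, u, u + 1} := by
    ext v
    simp only [Finset.mem_univ, Finset.mem_insert, Finset.mem_singleton, true_iff]
    exact h10 v
  rw [← Finset.card_univ, h11, Finset.card_insert_of_notMem, Finset.card_insert_of_notMem,
    Finset.card_insert_of_notMem, Finset.card_singleton]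
  · rw [Finset.mem_singleton]
    intro e
    exact one_ne_zero (add_eq_left.1 e.symm)
  · rw [Finset.mem_insert, Finset.mem_singleton]
    rintro (e | e)
    · exact hu1 e.symm
    · exact hu0 (add_eq_right.1 e.symm)
  · rw [Finset.mem_insert, Finset.mem_insert, Finset.mem_singleton]
    rintro (e | e | e)
    · exact zero_ne_one e
    · exact hu0 e.symm
    · exact hu2 e.symm

end Explicit

/-! ### the elements `a`, `b`, `w`, `y` -/

section Elements

variable {F : Type*} [Field F] {σ : F ≃+* F} {n : ℕ}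

/-- the diagonal of `a` -/
def dd (i0 i1 : Fin (n + 1)) (ω : F) (i : Fin (n + 1)) : F := if i = i0 then ω else if i = i1 then ω⁻¹ else 1

/-- the diagonal of `w` -/
def ee (i0 i1 i2 : Fin (n + 1)) (ω : F) (i : Fin (n + 1)) : F :=
  if i = i0 then ω ^ 2 else if i = i1 then ω⁻¹ else if i = i2 then ω⁻¹ else 1

/-- the 3-cycle -/
def cc (i0 i1 i2 : Fin (n + 1)) : Equiv.Perm (Fin (n + 1)) := Equiv.swap i0 i1 * Equiv.swap i1 i2

theorem dd_prod {i0 i1 : Fin (n + 1)} (h : i0 ≠ i1) {ω : F} (hω : ω ≠ 0) : ∏ i, dd i0 i1 ω i = 1 := by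
  have h1 : ∀ i, dd i0 i1 ω i = (if i = i0 then ω else 1) * (if i = i1 then ω⁻¹ else 1) := by
    intro i
    unfold dd
    by_cases h2 : i = i0
    · rw [if_pos h2, if_pos h2, if_neg (by rw [h2]; exact h), mul_one]
    · rw [if_neg h2, if_neg h2, one_mul]
  rw [Finset.prod_congr rfl fun i _ => h1 i, Finset.prod_mul_distrib, Finset.prod_ite_eq', Finset.prod_ite_eq',
    if_pos (Finset.mem_univ _), if_pos (Finset.mem_univ _), mul_inv_cancel₀ hω]

theorem dd_norm (i0 i1 : Fin (n + 1)) {ω : F} (hω : ω * σ ω = 1) (i : Fin (n + 1)) :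
    dd i0 i1 ω i * σ (dd i0 i1 ω i) = 1 := by
  unfold dd
  split_ifs
  · exact hω
  · rw [map_inv₀, ← mul_inv, hω, inv_one]
  · rw [map_one, one_mul]

theorem cc_rel {i0 i1 i2 : Fin (n + 1)} (h01 : i0 ≠ i1) (h02 : i0 ≠ i2) (h12 : i1 ≠ i2) {ω : F} (hω : ω ≠ 0)
    (i : Fin (n + 1)) : dd i0 i1 ω i = ee i0 i1 i2 ω i * dd i0 i1 ω (cc i0 i1 i2 i) := by
  unfold cc
  rw [Equiv.Perm.mul_apply]
  by_cases h0 : i = i0
  · subst h0
    rw [Equiv.swap_apply_of_ne_of_ne h01 h02, Equiv.swap_apply_left]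
    unfold dd ee
    rw [if_pos rfl, if_pos rfl, if_neg h01.symm, if_pos rfl]
    field_simp
  by_cases h1 : i = i1
  · subst h1
    rw [Equiv.swap_apply_left, Equiv.swap_apply_of_ne_of_ne h02.symm h12.symm]
    unfold dd ee
    rw [if_neg h0, if_pos rfl, if_neg h0, if_pos rfl, if_neg h02.symm, if_neg h12.symm, mul_one]
  by_cases h2 : i = i2
  · subst h2
    rw [Equiv.swap_apply_right, Equiv.swap_apply_right]
    unfold dd ee
    rw [if_neg h0, if_neg h1, if_neg h0, if_neg h1, if_pos rfl, if_pos rfl, inv_mul_cancel₀ hω]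
  rw [Equiv.swap_apply_of_ne_of_ne h1 h2, Equiv.swap_apply_of_ne_of_ne h0 h1]
  unfold dd ee
  rw [if_neg h0, if_neg h1, if_neg h0, if_neg h1, if_neg h2, one_mul]

/-- permutation matrices -/
def pM (c : Equiv.Perm (Fin (n + 1))) : Matrix (Fin (n + 1)) (Fin (n + 1)) F := Matrix.of fun i j => if c i = j then 1 else 0

theorem pM_apply (c : Equiv.Perm (Fin (n + 1))) (i j : Fin (n + 1)) :
    (pM c : Matrix (Fin (n + 1)) (Fin (n + 1)) F) i j = if c i = j then 1 else 0 := rfl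

theorem pM_det (c : Equiv.Perm (Fin (n + 1))) : (pM c : Matrix (Fin (n + 1)) (Fin (n + 1)) F).det = (Equiv.Perm.sign c : ℤ) := by
  have : (pM c : Matrix (Fin (n + 1)) (Fin (n + 1)) F) = c.toPEquiv.toMatrix := by
    ext i j
    rw [pM_apply, PEquiv.toMatrix_apply, Equiv.toPEquiv_apply]
    simp [eq_comm]
  rw [this]
  exact Matrix.det_permutation c

theorem pM_unit (c : Equiv.Perm (Fin (n + 1))) : (pM c : Matrix (Fin (n + 1)) (Fin (n + 1)) F)ᵀ * (pM c).map σ = 1 := by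
  ext i j
  rw [Matrix.mul_apply, Finset.sum_eq_single (c.symm i)]
  · rw [Matrix.transpose_apply, Matrix.map_apply, pM_apply, pM_apply, Equiv.apply_symm_apply, if_pos rfl, one_mul,
      Matrix.one_apply]
    split_ifs <;> simp
  · intro k _ hk
    rw [Matrix.transpose_apply, pM_apply, if_neg, zero_mul]
    intro e
    apply hk
    rw [← e, Equiv.symm_apply_apply]
  · intro hi
    exact absurd (Finset.mem_univ _) hi

end Elements

/-! ### the theorem -/

section Main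

variable {Q : Type*} [Group Q] [Finite Q] {A : Subgroup Q} {Γ : Subgroup (MulAut Q)}

omit [Finite Q] in
/-- `Â = M ∩ S` if `Â ≤ M` and some element of `S` is not in `M` -/
theorem hat_eq_of_le {ι : Type} [Fintype ι] [DecidableEq ι] {F : Type*} [Field F] {S M : Subgroup (GL ι F)}
    (m : Model Q S) (hA : IsCoatom A) (hM : m.hat A ≤ M) {x : GL ι F} (hxS : x ∈ S) (hx : x ∉ M) :
    m.hat A = M ⊓ S := by
  rcases (m.isMaximalIn hA).2 (M ⊓ S) (le_inf hM (m.hat_le A)) inf_le_right with h1 | h1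
  · exact h1.symm
  · exfalso
    rw [← h1] at hxS
    exact hx hxS.1

/-- the standard form -/
theorem c8u_std (h : EPT A Γ) {F : Type*} [Field F] [Fintype F] {σ : F ≃+* F} (hσ : σ ≠ RingEquiv.refl F)
    (hσ2 : ∀ a, σ (σ a) = a) {n : ℕ} (hn : 2 ≤ n) (hex : ¬ (n = 2 ∧ Fintype.card F = 4))
    (m : Model Q (Cfsg.Geo.specialLinear (Fin (n + 1)) F))
    (hA : m.hat A ≤ Cfsg.Geo.similarityGroup (hst σ : (Fin (n + 1) → F) → (Fin (n + 1) → F) → F)) : False := by
  have hσ' : (σ : F →+* F) ≠ RingHom.id F := by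
    intro e
    apply hσ
    ext x
    exact DFunLike.congr_fun e x
  -- `b` and `Z`
  obtain ⟨b, hb⟩ := Cfsg.Agent.ClassicalGeometry.InvolutiveNorm.exists_mul_sigma_eq hσ' hσ2 (a := -1)
    (by rw [map_neg, map_one])
  have hb' : b * σ b = -1 := hb
  have hb0 : b ≠ 0 := by
    rintro rfl
    rw [zero_mul] at hb'
    exact one_ne_zero (neg_eq_zero.1 hb'.symm)
  set Z : GL (Fin (n + 1)) F := toG (zM n b) (zM_det n b) with hZdef
  have hZ : (Z : Matrix (Fin (n + 1)) (Fin (n + 1)) F) = zM n b := rfl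
  have hZS : Z ∈ Cfsg.Geo.specialLinear (Fin (n + 1)) F := toG_mem _ _
  have hZM : Z ∉ Cfsg.Geo.similarityGroup (hst σ : (Fin (n + 1) → F) → (Fin (n + 1) → F) → F) := by
    rw [mem_sim]
    rintro ⟨c, hc⟩
    rw [hZ] at hc
    have h1 := zM_hess1 (σ := σ) n b (i := ⟨1, by omega⟩) (j := ⟨0, by omega⟩) rfl
    rw [hc, Matrix.smul_apply, Matrix.one_apply_ne (by simp), smul_zero] at h1
    exact hb0 h1.symm
  have hAe := hat_eq_of_le m h.max hA hZS hZM
  have hmem : ∀ g, g ∈ m.hat A ↔ g ∈ Cfsg.Geo.similarityGroup (hst σ : (Fin (n + 1) → F) → (Fin (n + 1) → F) → F) ∧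
      g ∈ Cfsg.Geo.specialLinear (Fin (n + 1)) F := by
    intro g
    rw [hAe, mem_inf]
  have hxA : Z⁻¹ ∉ m.hat A := fun e => hZM ((hmem _).1 (inv_mem_iff.1 e)).1
  -- `M0` is abelian
  have hcen : ∀ g ∈ m.hat A ⊓ cj Z⁻¹ (m.hat A), (g : Matrix (Fin (n + 1)) (Fin (n + 1)) F)ᵀ *
      ((zM n b)ᵀ * (zM n b).map σ) = ((zM n b)ᵀ * (zM n b).map σ) * (g : Matrix (Fin (n + 1)) (Fin (n + 1)) F)ᵀ := by
    rintro g ⟨hg1, hg2⟩
    obtain ⟨c, hc⟩ := (mem_sim σ).1 ((hmem g).1 hg1).1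
    obtain ⟨d, hd⟩ := (mem_sim σ).1 ((hmem _).1 (mem_cj.1 hg2)).1
    rw [inv_inv] at hd
    apply comm_of_two (σ := σ) (c := c) (d := d) c.ne_zero hc
    · set Y : GL (Fin (n + 1)) F := Z * g * Z⁻¹ with hY
      have e1 : (Y : Matrix (Fin (n + 1)) (Fin (n + 1)) F) * zM n b = zM n b * g := by
        rw [← hZ, ← Units.val_mul, ← Units.val_mul, hY]
        congr 1
        group
      have e2 : (g : Matrix (Fin (n + 1)) (Fin (n + 1)) F)ᵀ * ((zM n b)ᵀ * (zM n b).map σ) *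
          (g : Matrix (Fin (n + 1)) (Fin (n + 1)) F).map σ =
          (zM n b * (g : Matrix (Fin (n + 1)) (Fin (n + 1)) F))ᵀ *
            (zM n b * (g : Matrix (Fin (n + 1)) (Fin (n + 1)) F)).map σ := by
        rw [Matrix.transpose_mul, Matrix.map_mul]
        simp only [mul_assoc]
      rw [e2, ← e1, Matrix.transpose_mul, Matrix.map_mul]
      have e3 : (zM n b)ᵀ * (Y : Matrix (Fin (n + 1)) (Fin (n + 1)) F)ᵀ *
          ((Y : Matrix (Fin (n + 1)) (Fin (n + 1)) F).map σ * (zM n b).map σ) = (zM n b)ᵀ *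
          ((Y : Matrix (Fin (n + 1)) (Fin (n + 1)) F)ᵀ * (Y : Matrix (Fin (n + 1)) (Fin (n + 1)) F).map σ) *
          (zM n b).map σ := by
        simp only [mul_assoc]
      rw [e3, hd, Matrix.mul_smul, mul_one, Matrix.smul_mul]
    · rw [zM_trace n hb']
      exact one_ne_zero
  have hab : ∀ a ∈ m.hat A ⊓ cj Z⁻¹ (m.hat A), ∀ b ∈ m.hat A ⊓ cj Z⁻¹ (m.hat A), a * b = b * a := by
    intro a ha c hc
    have h1 := hess_comm (C := (zM n b)ᵀ * (zM n b).map σ) (fun i j hij => zM_hess0 n b hij)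
      (fun i j hij => by rw [zM_hess1 n b hij]; exact hb0) (hcen a ha) (hcen c hc)
    apply Units.ext
    rw [Units.val_mul, Units.val_mul]
    have h2 := congrArg Matrix.transpose h1
    rw [Matrix.transpose_mul, Matrix.transpose_mul, Matrix.transpose_transpose, Matrix.transpose_transpose] at h2
    exact h2.symm
  -- `ω`
  obtain ⟨ω, hω, hω1, hω3⟩ : ∃ ω : F, ω * σ ω = 1 ∧ ω ≠ 1 ∧ (n = 2 → ω ^ 3 ≠ 1) := by
    by_cases h2 : n = 2
    · obtain ⟨ω, h1, h3⟩ := exists_omega3 hσ hσ2 (fun e => hex ⟨h2, e⟩)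
      refine ⟨ω, h1, ?_, fun _ => h3⟩
      rintro rfl
      exact h3 (one_pow 3)
    · obtain ⟨ω, h1, h3⟩ := exists_omega hσ hσ2
      exact ⟨ω, h1, h3, fun e => absurd e h2⟩
  have hω0 : ω ≠ 0 := by
    rintro rfl
    rw [zero_mul] at hω
    exact zero_ne_one hω
  -- the elements
  obtain ⟨i0, i1, i2, hi0, hi1, hi2⟩ : ∃ i0 i1 i2 : Fin (n + 1), (i0 : ℕ) = 0 ∧ (i1 : ℕ) = 1 ∧ (i2 : ℕ) = 2 :=
    ⟨⟨0, by omega⟩, ⟨1, by omega⟩, ⟨2, by omega⟩, rfl, rfl, rfl⟩
  have h01 : i0 ≠ i1 := fun e => by rw [e] at hi0; omega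
  have h02 : i0 ≠ i2 := fun e => by rw [e] at hi0; omega
  have h12 : i1 ≠ i2 := fun e => by rw [e] at hi1; omega
  have hadet : (Matrix.diagonal (dd i0 i1 ω)).det = 1 := by
    rw [Matrix.det_diagonal, dd_prod h01 hω0]
  have hbdet : (pM (cc i0 i1 i2) : Matrix (Fin (n + 1)) (Fin (n + 1)) F).det = 1 := by
    rw [pM_det, cc, Equiv.Perm.sign_mul, Equiv.Perm.sign_swap h01, Equiv.Perm.sign_swap h12]
    norm_num
  set a : GL (Fin (n + 1)) F := toG _ hadet with ha
  set c : GL (Fin (n + 1)) F := toG _ hbdet with hc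
  have ha' : (a : Matrix (Fin (n + 1)) (Fin (n + 1)) F) = Matrix.diagonal (dd i0 i1 ω) := rfl
  have hc' : (c : Matrix (Fin (n + 1)) (Fin (n + 1)) F) = pM (cc i0 i1 i2) := rfl
  have haA : a ∈ m.hat A := by
    rw [hmem]
    refine ⟨(mem_sim σ).2 ⟨1, ?_⟩, toG_mem _ _⟩
    rw [ha', Matrix.diagonal_transpose, Matrix.diagonal_map (map_zero σ), Matrix.diagonal_mul_diagonal, Units.val_one,
      one_smul, ← Matrix.diagonal_one]
    congr 1
    funext i
    exact dd_norm i0 i1 hω i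
  have hcA : c ∈ m.hat A := by
    rw [hmem]
    refine ⟨(mem_sim σ).2 ⟨1, ?_⟩, toG_mem _ _⟩
    rw [hc', pM_unit, Units.val_one, one_smul]
  set w : GL (Fin (n + 1)) F := a * c * (c * a)⁻¹ with hw
  have hw1 : a * c = w * (c * a) := by rw [hw, inv_mul_cancel_right]
  have hw2 : (w : Matrix (Fin (n + 1)) (Fin (n + 1)) F) = Matrix.diagonal (ee i0 i1 i2 ω) := by
    have e1 : (w : Matrix (Fin (n + 1)) (Fin (n + 1)) F) * ((c * a : GL (Fin (n + 1)) F) : Matrix _ _ F) =
        Matrix.diagonal (ee i0 i1 i2 ω) * ((c * a : GL (Fin (n + 1)) F) : Matrix _ _ F) := by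
      rw [← Units.val_mul, ← hw1, Units.val_mul, Units.val_mul, ha', hc']
      ext i j
      rw [Matrix.diagonal_mul, Matrix.diagonal_mul, Matrix.mul_diagonal, pM_apply]
      by_cases hij : cc i0 i1 i2 i = j
      · rw [if_pos hij, mul_one, one_mul, ← hij]
        exact cc_rel h01 h02 h12 hω0 i
      · rw [if_neg hij, mul_zero, zero_mul, mul_zero]
    exact (Units.isUnit (c * a)).mul_right_cancel e1
  have hydet : (Matrix.transvection i1 i2 (1 : F)).det = 1 := Matrix.det_transvection_of_ne i1 i2 h12 1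
  set y : GL (Fin (n + 1)) F := toG _ hydet with hy
  have hy' : (y : Matrix (Fin (n + 1)) (Fin (n + 1)) F) = Matrix.transvection i1 i2 (1 : F) := rfl
  have hyA : y ∉ m.hat A := by
    rw [hmem]
    rintro ⟨h1, -⟩
    obtain ⟨d, hd⟩ := (mem_sim σ).1 h1
    have h2 := congrFun (congrFun hd i1) i2
    rw [hy', Matrix.smul_apply, Matrix.one_apply_ne h12, smul_zero, Matrix.mul_apply, Finset.sum_eq_single i1] at h2
    · simp [Matrix.transvection, Matrix.single, h12, h12.symm] at h2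
    · intro k _ hk
      simp [Matrix.transvection, Matrix.single, h12.symm, hk, Ne.symm hk]
    · intro hi
      exact absurd (Finset.mem_univ _) hi
  have hyw : y * w = w * y := by
    apply Units.ext
    rw [Units.val_mul y w, Units.val_mul w y, hw2, hy']
    ext i j
    rw [Matrix.mul_diagonal, Matrix.diagonal_mul]
    by_cases hij : i = j
    · rw [hij, mul_comm]
    · by_cases hij' : i = i1 ∧ j = i2
      · rw [hij'.1, hij'.2]
        have e1 : ee i0 i1 i2 ω i1 = ω⁻¹ := by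
          unfold ee
          rw [if_neg h01.symm, if_pos rfl]
        have e2 : ee i0 i1 i2 ω i2 = ω⁻¹ := by
          unfold ee
          rw [if_neg h02.symm, if_neg h12.symm, if_pos rfl]
        rw [e1, e2, mul_comm]
      · have : Matrix.transvection i1 i2 (1 : F) i j = 0 := by
          rw [Matrix.transvection, Matrix.add_apply, Matrix.one_apply_ne hij, zero_add, Matrix.single_apply, if_neg]
          rintro ⟨e1, e2⟩
          exact hij' ⟨e1.symm, e2.symm⟩
        rw [this, zero_mul, mul_zero]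
  have hfin := kill_abM0 h m ((Cfsg.Geo.specialLinear (Fin (n + 1)) F).inv_mem hZS) hxA hab haA hcA hw1
    (toG_mem _ hydet) hyA hyw
  rw [Cfsg.Geo.mem_scalars_iff] at hfin
  obtain ⟨d, hd⟩ := hfin
  rw [hw2] at hd
  have hdi : ∀ i, ee i0 i1 i2 ω i = d := by
    intro i
    have := congrFun (congrFun hd i) i
    rwa [Matrix.diagonal_apply_eq, Matrix.smul_apply, Matrix.one_apply_eq, smul_eq_mul, mul_one] at this
  have e0 : ω ^ 2 = d := by
    rw [← hdi i0]
    unfold ee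
    rw [if_pos rfl]
  have e1 : ω⁻¹ = d := by
    rw [← hdi i1]
    unfold ee
    rw [if_neg h01.symm, if_pos rfl]
  by_cases h2 : n = 2
  · apply hω3 h2
    rw [pow_succ, e0, ← e1, inv_mul_cancel₀ hω0]
  · apply hω1
    have e3 : (1 : F) = d := by
      rw [← hdi ⟨3, by omega⟩]
      unfold ee
      rw [if_neg (fun e => by rw [← e] at hi0; simp at hi0), if_neg (fun e => by rw [← e] at hi1; simp at hi1),
        if_neg (fun e => by rw [← e] at hi2; simp at hi2)]
    rw [← e3] at e1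
    exact inv_eq_one.1 e1

/-- **S3499-III-SL-C8U** -/
theorem sl_c8u (_hs : IsSimpleGroup Q) (h : EPT A Γ) {F : Type*} [Field F] [Fintype F] {n : ℕ}
    (m : Model Q (Cfsg.Geo.specialLinear (Fin n) F)) (hn : 3 ≤ n) (_h32 : ¬ (n = 3 ∧ Fintype.card F = 2))
    (h34 : ¬ (n = 3 ∧ Fintype.card F = 4)) (_h42 : ¬ (n = 4 ∧ Fintype.card F = 2)) {σ : F ≃+* F}
    {f : (Fin n → F) → (Fin n → F) → F} (hf : Cfsg.Geo.IsUnitaryForm σ f)
    (hA : m.hat A ≤ Cfsg.Geo.similarityGroup f) : False := by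
  obtain ⟨k, rfl⟩ : ∃ k, n = k + 1 := ⟨n - 1, by omega⟩
  obtain ⟨P, hP⟩ := exists_std σ hf
  refine c8u_std h hf.ne_refl hf.involutive (n := k) (by omega) (fun e => h34 ⟨by omega, e.2⟩)
    (conjModel m P (sl_conj P)) ?_
  intro g hg
  rw [mem_hat_conjModel] at hg
  obtain ⟨c, hc⟩ := hA hg
  refine ⟨c, fun u v => ?_⟩
  rw [← hP, ← hP]
  have e : ∀ u : Fin (k + 1) → F, (P : Matrix (Fin (k + 1)) (Fin (k + 1)) F) *ᵥ
      ((g : Matrix (Fin (k + 1)) (Fin (k + 1)) F) *ᵥ u) =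
      ((P * g * P⁻¹ : GL (Fin (k + 1)) F) : Matrix (Fin (k + 1)) (Fin (k + 1)) F) *ᵥ
        ((P : Matrix (Fin (k + 1)) (Fin (k + 1)) F) *ᵥ u) := by
    intro u
    rw [Matrix.mulVec_mulVec, Matrix.mulVec_mulVec, ← Units.val_mul, ← Units.val_mul, inv_mul_cancel_right]
  rw [e, e, hc]

end Main

end Cfsg.Agent.H135.EP
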